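import Cfsg.Agent.KnownB.Proj.GroupTwist

/-! The notions about classes under subgroups, transported along isomorphisms. -/

set_option autoImplicit false

namespace Cfsg.Agent.KnownB.Proj

universe u v

variable {X : Type u} [Group X] {Y : Type v} [Group Y] (e : X ≃* Y)

theorem isConjUnder_map_iff (H : Subgroup X) (x y : X) :
    Cfsg.IsConjUnder (H.map e.toMonoidHom) (e x) (e y) ↔ Cfsg.IsConjUnder H x y := by
  constructor
  · rintro ⟨_, ⟨h, hh, rfl⟩, he⟩
    refine ⟨h, hh, e.injective ?_⟩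
    rw [he, map_mul, map_mul, map_inv]
    rfl
  · rintro ⟨h, hh, rfl⟩
    exact ⟨e h, ⟨h, hh, rfl⟩, by rw [map_mul, map_mul, map_inv]⟩

theorem splitClassCount_map (H K : Subgroup X) (x : X) :
    Cfsg.splitClassCount (H.map e.toMonoidHom) (K.map e.toMonoidHom) (e x) =
      Cfsg.splitClassCount H K x :=
  (Nat.card_congr (Quot.congr (e.toEquiv.subtypeEquiv fun y => (isConjUnder_map_iff e H x y).symm)
    fun y z => (isConjUnder_map_iff e K y.1 z.1).symm)).symm

theorem centralizer_map (H : Subgroup X) (x : X) :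
    Nonempty (↥(H ⊓ Subgroup.centralizer {x}) ≃*
      ↥(H.map e.toMonoidHom ⊓ Subgroup.centralizer {e x})) := by
  have he : (H ⊓ Subgroup.centralizer {x}).map e.toMonoidHom =
      H.map e.toMonoidHom ⊓ Subgroup.centralizer {e x} := by
    ext y
    obtain ⟨y, rfl⟩ := e.surjective y
    simp only [Subgroup.mem_map_equiv, Subgroup.mem_inf, Subgroup.mem_centralizer_singleton_iff,
      MulEquiv.symm_apply_apply, ← map_mul, EmbeddingLike.apply_eq_iff_eq]
  exact ⟨(Subgroup.equivMapOfInjective _ e.toMonoidHom e.injective).trans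
    (MulEquiv.subgroupCongr he)⟩

theorem inn_map_congr {G : Type u} [Group G] {G' : Type v} [Group G'] (ψ : G ≃* G') :
    (Cfsg.Inn G).map (MulAut.congr ψ).toMonoidHom = Cfsg.Inn G' := by
  have key : ∀ g, MulAut.congr ψ (MulAut.conj g) = MulAut.conj (ψ g) := fun g => by
    refine MulEquiv.ext fun y => ?_
    obtain ⟨y, rfl⟩ := ψ.surjective y
    show ψ (MulAut.conj g (ψ.symm (ψ y))) = _
    simp [MulAut.conj_apply]
  ext β
  constructor
  · rintro ⟨_, ⟨g, rfl⟩, rfl⟩
    exact ⟨ψ g, (key g).symm⟩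
  · rintro ⟨g', rfl⟩
    obtain ⟨g, rfl⟩ := ψ.surjective g'
    exact ⟨_, ⟨g, rfl⟩, key g⟩

end Cfsg.Agent.KnownB.Proj
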