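import Mathlib

/-! The fundamental theorem of projective geometry in coordinates. -/

set_option autoImplicit false

namespace Cfsg.Agent.KnownB.Proj

open scoped Matrix

variable {F : Type*} [Field F] {ι : Type*} [Fintype ι] [DecidableEq ι]

/-- A map of points preserving and reflecting lines. -/
structure Collin (g : (ι → F) → (ι → F)) : Prop where
  ne : ∀ v, v ≠ 0 → g v ≠ 0
  line : ∀ u v x, u ≠ 0 → v ≠ 0 → x ≠ 0 → (∃ a b : F, a • u + b • v = x) →
    ∃ a b : F, a • g u + b • g v = g x
  line' : ∀ u v x, u ≠ 0 → v ≠ 0 → x ≠ 0 → (∃ a b : F, a • g u + b • g v = g x) →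
    ∃ a b : F, a • u + b • v = x
  surj : ∀ y, y ≠ 0 → ∃ x, x ≠ 0 ∧ ∃ c : F, c ≠ 0 ∧ g x = c • y

namespace Collin

variable {g : (ι → F) → (ι → F)} (hg : Collin g)
include hg

omit [Fintype ι] [DecidableEq ι] in
theorem map_mem_span {s : Set (ι → F)} (hs : ∀ u ∈ s, u ≠ 0) :
    ∀ x ∈ Submodule.span F s, x ≠ 0 → g x ∈ Submodule.span F (g '' s) := by
  intro x hx
  induction hx using Submodule.span_induction with
  | mem u hu => exact fun _ => Submodule.subset_span ⟨u, hu, rfl⟩
  | zero => exact fun h => absurd rfl h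
  | add u v _ _ ihu ihv =>
    intro h
    by_cases hu : u = 0
    · subst hu; rw [zero_add] at h ⊢; exact ihv h
    by_cases hv : v = 0
    · subst hv; rw [add_zero] at h ⊢; exact ihu h
    obtain ⟨a, b, hab⟩ := hg.line u v (u + v) hu hv h ⟨1, 1, by simp⟩
    rw [← hab]
    exact add_mem (Submodule.smul_mem _ a (ihu hu)) (Submodule.smul_mem _ b (ihv hv))
  | smul c u _ ihu =>
    intro h
    have hu : u ≠ 0 := fun h0 => h (by rw [h0, smul_zero])
    obtain ⟨a, b, hab⟩ := hg.line u u (c • u) hu hu h ⟨c, 0, by simp⟩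
    rw [← hab]
    exact add_mem (Submodule.smul_mem _ a (ihu hu)) (Submodule.smul_mem _ b (ihu hu))

omit [Fintype ι] [DecidableEq ι] in
theorem exists_preimage {s : Set (ι → F)} (hs : ∀ u ∈ s, u ≠ 0) :
    ∀ y ∈ Submodule.span F (g '' s), y ≠ 0 →
      ∃ x ∈ Submodule.span F s, x ≠ 0 ∧ ∃ c : F, c ≠ 0 ∧ g x = c • y := by
  intro y hy
  induction hy using Submodule.span_induction with
  | mem u hu =>
    obtain ⟨v, hv, rfl⟩ := hu
    exact fun _ => ⟨v, Submodule.subset_span hv, hs v hv, 1, one_ne_zero, (one_smul _ _).symm⟩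
  | zero => exact fun h => absurd rfl h
  | add u v _ _ ihu ihv =>
    intro h
    by_cases hu : u = 0
    · subst hu; rw [zero_add] at h ⊢; exact ihv h
    by_cases hv : v = 0
    · subst hv; rw [add_zero] at h ⊢; exact ihu h
    obtain ⟨xu, hxu, hxu0, cu, hcu, eu⟩ := ihu hu
    obtain ⟨xv, hxv, hxv0, cv, hcv, ev⟩ := ihv hv
    obtain ⟨x, hx0, c, hc, e⟩ := hg.surj _ h
    obtain ⟨a, b, hab⟩ := hg.line' xu xv x hxu0 hxv0 hx0
      ⟨c * cu⁻¹, c * cv⁻¹, by
        rw [eu, ev, e, smul_smul, smul_smul, smul_add, inv_mul_cancel_right₀ hcu,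
          inv_mul_cancel_right₀ hcv]⟩
    exact ⟨x, hab ▸ add_mem (Submodule.smul_mem _ a hxu) (Submodule.smul_mem _ b hxv), hx0, c, hc, e⟩
  | smul a u _ ihu =>
    intro h
    have ha : a ≠ 0 := fun h0 => h (by rw [h0, zero_smul])
    obtain ⟨x, hx, hx0, c, hc, e⟩ := ihu fun h0 => h (by rw [h0, smul_zero])
    exact ⟨x, hx, hx0, c * a⁻¹, mul_ne_zero hc (inv_ne_zero ha),
      by rw [e, smul_smul, inv_mul_cancel_right₀ ha]⟩

/-- The images of the coordinate vectors are independent. -/
theorem linearIndependent : LinearIndependent F fun i => g (Pi.single i 1) := by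
  have he : ∀ i, (Pi.single i 1 : ι → F) ≠ 0 := fun i h => by simpa using congrFun h i
  rw [linearIndependent_iff_notMem_span]
  intro i hi
  rw [show (fun i => g (Pi.single i 1)) = g ∘ fun i => (Pi.single i 1 : ι → F) from rfl,
    Set.image_comp] at hi
  have hs : ∀ u ∈ (fun i => (Pi.single i 1 : ι → F)) '' (Set.univ \ {i}), u ≠ 0 := by
    rintro _ ⟨j, -, rfl⟩
    exact he j
  obtain ⟨x, hx, hx0, c, hc, e⟩ := hg.exists_preimage hs _ hi (hg.ne _ (he i))
  obtain ⟨a, b, hab⟩ := hg.line' x x (Pi.single i 1) hx0 hx0 (he i)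
    ⟨c⁻¹, 0, by rw [e, zero_smul, add_zero]; exact inv_smul_smul₀ hc _⟩
  have hmem : (Pi.single i 1 : ι → F) ∈
      Submodule.span F ((fun i => (Pi.single i 1 : ι → F)) '' (Set.univ \ {i})) :=
    hab ▸ add_mem (Submodule.smul_mem _ a hx) (Submodule.smul_mem _ b hx)
  have hli : LinearIndependent F fun i => (Pi.single i 1 : ι → F) := by
    have := (Pi.basisFun F ι).linearIndependent
    convert this using 1
    funext j
    simp
  exact linearIndependent_iff_notMem_span.mp hli i hmem

/-- The fundamental theorem of projective geometry. -/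
theorem exists_semilinear (hι : 3 ≤ Fintype.card ι) :
    ∃ (σ : F ≃+* F) (G : Matrix.GeneralLinearGroup ι F), ∀ v, v ≠ 0 →
      ∃ c : F, c ≠ 0 ∧ g v = c • ((G : Matrix ι ι F) *ᵥ fun i => σ (v i)) := by
  classical
  obtain ⟨o⟩ : Nonempty ι := Fintype.card_pos_iff.mp (by omega)
  let e : ι → ι → F := fun i => Pi.single i 1
  have he : ∀ i, e i ≠ 0 := fun i h => by simpa [e] using congrFun h i
  have hoi : ∀ i, i ≠ o → e o + e i ≠ 0 := fun i hi h => by
    have := congrFun h i
    simp [e, hi] at this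
  have hind := hg.linearIndependent
  -- rescale the images
  have h1 : ∀ i, ∃ k : F, k ≠ 0 ∧ (i ≠ o → ∃ c : F, g (e o + e i) = c • (g (e o) + k • g (e i))) := by
    intro i
    by_cases hi : i = o
    · exact ⟨1, one_ne_zero, fun h => absurd hi h⟩
    obtain ⟨a, b, hab⟩ := hg.line (e o) (e i) (e o + e i) (he o) (he i) (hoi i hi) ⟨1, 1, by simp⟩
    have ha : a ≠ 0 := by
      rintro rfl
      rw [zero_smul, zero_add] at hab
      obtain ⟨a', b', h⟩ := hg.line' (e i) (e i) (e o + e i) (he i) (he i) (hoi i hi)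
        ⟨b, 0, by simpa using hab⟩
      have := congrFun h o
      simp [e, Ne.symm hi] at this
    have hb : b ≠ 0 := by
      rintro rfl
      rw [zero_smul, add_zero] at hab
      obtain ⟨a', b', h⟩ := hg.line' (e o) (e o) (e o + e i) (he o) (he o) (hoi i hi)
        ⟨a, 0, by simpa using hab⟩
      have := congrFun h i
      simp [e, hi] at this
    refine ⟨b / a, div_ne_zero hb ha, fun _ => ⟨a, ?_⟩⟩
    rw [← hab, smul_add, smul_smul, mul_div_cancel₀ _ ha]
  choose k hk hke using h1
  let w : ι → ι → F := fun i => if i = o then g (e o) else k i • g (e i)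
  have hw : LinearIndependent F w := by
    have := hind.units_smul fun i => if i = o then 1 else Units.mk0 (k i) (hk i)
    convert this using 1
    funext i
    by_cases hi : i = o
    · subst hi; simp [w, e]
    · simp only [Pi.smul_apply', w, if_neg hi, e]; rfl
  have hcard : Fintype.card ι = Module.finrank F (ι → F) := (Module.finrank_pi F).symm
  have : Nonempty ι := ⟨o⟩
  let B := basisOfLinearIndependentOfCardEqFinrank hw hcard
  have hB : ∀ i, B i = w i := fun i => by simp [B]
  let crd : (ι → F) → ι → F := fun y => B.equivFun y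
  have crd_add : ∀ y z i, crd (y + z) i = crd y i + crd z i := fun y z i => by simp [crd]
  have crd_smul : ∀ (c : F) y i, crd (c • y) i = c * crd y i := fun c y i => by simp [crd]
  have crd_w : ∀ i j, crd (w i) j = if i = j then 1 else 0 := fun i j => by
    rw [← hB]; simp [crd, Finsupp.single_apply]
  have crd_ext : ∀ y z, (∀ i, crd y i = crd z i) → y = z := fun y z h =>
    B.equivFun.injective (funext h)
  have hgo : g (e o) = w o := by simp [w]
  have hgi : ∀ i, i ≠ o → g (e i) = (k i)⁻¹ • w i := fun i hi => by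
    simp [w, hi, smul_smul, inv_mul_cancel₀ (hk i)]
  have hge : ∀ i j, crd (g (e i)) j = if i = j then (if i = o then 1 else (k i)⁻¹) else 0 := by
    intro i j
    by_cases hi : i = o
    · subst hi; rw [hgo, crd_w]; by_cases hij : i = j <;> simp [hij]
    · rw [hgi i hi, crd_smul, crd_w]
      by_cases hij : i = j
      · subst hij; simp [hi]
      · simp [hij]
  -- zero coordinates
  have hzero : ∀ x, x ≠ 0 → ∀ j, x j = 0 → crd (g x) j = 0 := by
    intro x hx j hj
    have hmem : x ∈ Submodule.span F (e '' {i | i ≠ j}) := by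
      rw [show x = ∑ i, x i • e i by
        funext l; simp [e, Finset.sum_apply, Pi.single_apply]]
      refine Submodule.sum_mem _ fun i _ => ?_
      by_cases hij : i = j
      · subst hij; rw [hj, zero_smul]; exact zero_mem _
      · exact Submodule.smul_mem _ _ (Submodule.subset_span ⟨i, hij, rfl⟩)
    have h := hg.map_mem_span (by rintro _ ⟨i, -, rfl⟩; exact he i) x hmem hx
    generalize g x = y at h
    induction h using Submodule.span_induction with
    | mem y hy =>
      obtain ⟨_, ⟨i, hi, rfl⟩, rfl⟩ := hy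
      rw [hge, if_neg hi]
    | zero => simp [crd]
    | add u v _ _ hu hv => rw [crd_add, hu, hv, add_zero]
    | smul c u _ hu => rw [crd_smul, hu, mul_zero]
  have hnz : ∀ x, x ≠ 0 → ∀ j, crd (g x) j = 0 → x j = 0 := by
    intro x hx j hj
    have hmem : g x ∈ Submodule.span F (g '' (e '' {i | i ≠ j})) := by
      rw [← B.sum_equivFun (g x)]
      refine Submodule.sum_mem _ fun i _ => ?_
      by_cases hij : i = j
      · subst hij
        rw [show B.equivFun (g x) i = 0 from hj, zero_smul]
        exact zero_mem _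
      · rw [hB]
        refine Submodule.smul_mem _ _ ?_
        by_cases hi : i = o
        · subst hi
          rw [← hgo]
          exact Submodule.subset_span ⟨_, ⟨_, hij, rfl⟩, rfl⟩
        · rw [show w i = k i • g (e i) by simp [w, hi]]
          exact Submodule.smul_mem _ _ (Submodule.subset_span ⟨_, ⟨_, hij, rfl⟩, rfl⟩)
    obtain ⟨z, hz, hz0, c, hc, ez⟩ := hg.exists_preimage
      (by rintro _ ⟨i, -, rfl⟩; exact he i) _ hmem (hg.ne x hx)
    obtain ⟨a, b, hab⟩ := hg.line' z z x hz0 hz0 hx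
      ⟨c⁻¹, 0, by rw [ez, zero_smul, add_zero]; exact inv_smul_smul₀ hc _⟩
    have hzj : z j = 0 := by
      clear ez hz0 hab
      induction hz using Submodule.span_induction with
      | mem y hy => obtain ⟨i, hi, rfl⟩ := hy; simp [e, Ne.symm hi]
      | zero => rfl
      | add u v _ _ hu hv => rw [Pi.add_apply, hu, hv, add_zero]
      | smul c u _ hu => rw [Pi.smul_apply, hu, smul_zero]
    rw [← hab]; simp [hzj]
  -- the ratio coordinates
  let θ : (ι → F) → ι → F := fun x i => crd (g x) i / crd (g x) o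
  have ho0 : ∀ x : ι → F, x o = 1 → x ≠ 0 := fun x hx h => by simp [h] at hx
  have hden : ∀ x : ι → F, x o = 1 → crd (g x) o ≠ 0 := fun x hx h =>
    one_ne_zero (hx.symm.trans (hnz x (ho0 x hx) o h))
  let σf : ι → F → F := fun i a => θ (e o + a • e i) i
  have hpt : ∀ i, i ≠ o → ∀ a : F, (e o + a • e i) o = 1 := fun i hi a => by simp [e, Ne.symm hi]
  have hσone : ∀ i, i ≠ o → σf i 1 = 1 := by
    intro i hi
    obtain ⟨c, hc⟩ := hke i hi
    have hw' : g (e o) + k i • g (e i) = w o + w i := by simp [w, hi]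
    have hc0 : c ≠ 0 := fun h => hg.ne _ (hoi i hi) (by rw [hc, h, zero_smul])
    simp only [σf, θ, one_smul, hc, hw', crd_smul, crd_add, crd_w, if_pos rfl, if_neg hi,
      if_neg (Ne.symm hi), add_zero, zero_add]
    field_simp
  have hσzero : ∀ i, i ≠ o → σf i 0 = 0 := by
    intro i hi
    simp only [σf, θ, zero_smul, add_zero]
    rw [hzero (e o) (he o) i (by simp [e, hi]), zero_div]
  have hθ : ∀ x, x o = 1 → ∀ i, i ≠ o → θ x i = σf i (x i) := by
    -- `θ x i` only depends on `x i`: induct on the support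
    intro x hx i hi
    suffices H : ∀ (S : Finset ι), o ∉ S → ∀ y : ι → F, y o = 1 → (∀ l, l ≠ o → l ∉ S → y l = 0) →
        ∀ l, l ≠ o → θ y l = σf l (y l) from
      H (Finset.univ.erase o) (Finset.notMem_erase o _) x hx
        (fun l hl h => absurd (Finset.mem_erase.mpr ⟨hl, Finset.mem_univ l⟩) h) i hi
    intro S
    induction S using Finset.induction_on with
    | empty =>
      intro _ y hy hS l hl
      rw [hS l hl (Finset.notMem_empty l), hσzero l hl]
      simp only [θ]
      rw [hzero y (ho0 y hy) l (hS l hl (Finset.notMem_empty l)), zero_div]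
    | insert j S hjS ih =>
      intro hoS y hy hS l hl
      rw [Finset.mem_insert, not_or] at hoS
      by_cases hyl : y l = 0
      · rw [hyl, hσzero l hl]
        simp only [θ]
        rw [hzero y (ho0 y hy) l hyl, zero_div]
      have hjo : j ≠ o := Ne.symm hoS.1
      set y' := y - y j • e j with hy'
      have hy'o : y' o = 1 := by simp [hy', e, hoS.1, hy]
      have hy'S : ∀ m, m ≠ o → m ∉ S → y' m = 0 := by
        intro m hm hmS
        by_cases hmj : m = j
        · subst hmj; simp [hy', e]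
        · simp [hy', e, hmj, hS m hm (by simp [hmj, hmS])]
      by_cases hlj : l = j
      · subst hlj
        -- `y` lies in the span of `e o + y l e l` and the other coordinate vectors
        set p := e o + y l • e l with hp
        have hpo : p o = 1 := hpt l hl (y l)
        set r := y - p with hr
        by_cases hr0 : r = 0
        · rw [sub_eq_zero] at hr0; rw [hr0, show p l = y l by simp [hp, e, hl]]
        have hrl : r l = 0 := by simp [hr, hp, e, hl]
        have hro : r o = 0 := by simp [hr, hy, hpo]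
        obtain ⟨a, b, hab⟩ := hg.line p r y (ho0 p hpo) hr0 (ho0 y hy) ⟨1, 1, by simp [hr]⟩
        simp only [θ, σf, ← hp]
        rw [← hab, crd_add, crd_add, crd_smul, crd_smul, crd_smul, crd_smul,
          hzero r hr0 l hrl, hzero r hr0 o hro, mul_zero, add_zero, add_zero]
        have ha : a ≠ 0 := by
          rintro rfl
          have := hden y hy
          rw [← hab, crd_add, crd_smul, crd_smul, zero_mul, hzero r hr0 o hro, mul_zero,
            add_zero] at this
          exact this rfl
        rw [mul_div_mul_left _ _ ha]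
      · have hyy : y' ≠ 0 := ho0 y' hy'o
        obtain ⟨a, b, hab⟩ := hg.line y' (e j) y hyy (he j) (ho0 y hy) ⟨1, y j, by simp [hy']⟩
        have hkey := ih hoS.2 y' hy'o hy'S l hl
        have hyl' : y' l = y l := by simp [hy', e, hlj]
        rw [hyl'] at hkey
        rw [← hkey]
        simp only [θ]
        rw [← hab, crd_add, crd_add, crd_smul, crd_smul, crd_smul, crd_smul, hge j l, hge j o,
          if_neg (Ne.symm hlj), if_neg hjo, mul_zero, add_zero, add_zero]
        have ha : a ≠ 0 := by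
          rintro rfl
          have := hden y hy
          rw [← hab, crd_add, crd_smul, crd_smul, zero_mul, hge j o, if_neg hjo, mul_zero,
            add_zero] at this
          exact this rfl
        rw [mul_div_mul_left _ _ ha]
  have hnorm : ∀ x, x o = 1 → ∀ i, i ≠ o → crd (g x) i = crd (g x) o * σf i (x i) := by
    intro x hx i hi
    rw [← hθ x hx i hi, mul_div_cancel₀ _ (hden x hx)]
  have hz : ∀ i, i ≠ o → ∀ j, j ≠ o → i ≠ j → ∀ a b : F,
      ∀ y : ι → F, y o = 0 → y i = a → y j = b → y ≠ 0 →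
      ∃ d : F, crd (g y) i = d * σf i a ∧ crd (g y) j = d * σf j b := by
    intro i hi j hj hij a b y hyo hyi hyj hy0
    set x := e o + y with hx
    have hxo : x o = 1 := by simp [hx, e, hyo]
    obtain ⟨c, d, hcd⟩ := hg.line x (e o) y (ho0 x hxo) (he o) hy0 ⟨1, -1, by simp [hx]⟩
    refine ⟨c * crd (g x) o, ?_, ?_⟩
    · rw [← hcd, crd_add, crd_smul, crd_smul, hge o i, if_neg (Ne.symm hi), hnorm x hxo i hi,
        show x i = a by simp [hx, e, hi, hyi]]
      ring
    · rw [← hcd, crd_add, crd_smul, crd_smul, hge o j, if_neg (Ne.symm hj), hnorm x hxo j hj,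
        show x j = b by simp [hx, e, hj, hyj]]
      ring
  obtain ⟨i₁, hi₁⟩ := Fintype.exists_ne_of_one_lt_card (by omega) o
  obtain ⟨i₂, hi₂, hi₁₂⟩ : ∃ i₂, i₂ ≠ o ∧ i₁ ≠ i₂ := by
    by_contra h
    push Not at h
    have : Finset.univ ⊆ ({o, i₁} : Finset ι) := fun l _ => by
      by_cases hl : l = o
      · simp [hl]
      · simp [h l hl]
    have := Finset.card_le_card this
    rw [Finset.card_univ] at this
    have := Finset.card_le_two (a := o) (b := i₁)
    omega
  -- all coordinate maps agree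
  have hsame : ∀ i j, i ≠ o → j ≠ o → ∀ a, σf i a = σf j a := by
    intro i j hi hj a
    by_cases hij : i = j
    · rw [hij]
    by_cases ha : a = 0
    · rw [ha, hσzero i hi, hσzero j hj]
    set y := a • (e i + e j) with hy
    set z := e i + e j with hzdef
    have hz0 : z ≠ 0 := fun h => by simpa [hzdef, e, hij, hi] using congrFun h i
    have hy0 : y ≠ 0 := smul_ne_zero ha hz0
    obtain ⟨d, d1, d2⟩ := hz i hi j hj hij a a y (by simp [hy, hzdef, e, Ne.symm hi, Ne.symm hj])
      (by simp [hy, hzdef, e, hij]) (by simp [hy, hzdef, e, hij, Ne.symm hij]) hy0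
    obtain ⟨d', d1', d2'⟩ := hz i hi j hj hij 1 1 z (by simp [hzdef, e, Ne.symm hi, Ne.symm hj])
      (by simp [hzdef, e, hij]) (by simp [hzdef, e, hij, Ne.symm hij]) hz0
    rw [hσone i hi, mul_one] at d1'
    rw [hσone j hj, mul_one] at d2'
    obtain ⟨c, c', hc⟩ := hg.line z z y hz0 hz0 hy0 ⟨a, 0, by simp [hy]⟩
    have e1 : crd (g y) i = crd (g y) j := by
      rw [← hc]; simp only [crd_add, crd_smul, d1', d2']
    have hd0 : d ≠ 0 := by
      rintro rfl
      rw [zero_mul] at d1
      exact ha (by simpa [hy, hzdef, e, hij] using hnz y hy0 i d1)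
    exact mul_left_cancel₀ hd0 (d1.symm.trans (e1.trans d2))
  set s := σf i₁ with hs
  have hsi : ∀ i, i ≠ o → σf i = s := fun i hi => funext fun a => hsame i i₁ hi hi₁ a
  have hadd : ∀ a b, s (a + b) = s a + s b := by
    intro a b
    set x := e o + (a + b) • e i₁ + e i₂ with hx
    set u := e o + a • e i₁ with hu
    set v := b • e i₁ + e i₂ with hv
    have hxo : x o = 1 := by simp [hx, e, Ne.symm hi₁, Ne.symm hi₂]
    have huo : u o = 1 := hpt i₁ hi₁ a
    have hv0 : v ≠ 0 := fun h => by
      simpa [hv, e, hi₁₂.symm] using congrFun h i₂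
    obtain ⟨c, d, hcd⟩ := hg.line u v x (ho0 u huo) hv0 (ho0 x hxo)
      ⟨1, 1, by simp only [hx, hu, hv]; module⟩
    obtain ⟨t, t1, t2⟩ := hz i₁ hi₁ i₂ hi₂ hi₁₂ b 1 v
      (by simp [hv, e, Ne.symm hi₁, Ne.symm hi₂]) (by simp [hv, e, hi₁₂])
      (by simp [hv, e, hi₁₂.symm]) hv0
    rw [hσone i₂ hi₂, mul_one] at t2
    have e1 := hnorm x hxo i₁ hi₁
    have e2 := hnorm x hxo i₂ hi₂
    rw [show x i₁ = a + b by simp [hx, e, hi₁, hi₁₂], ← hcd, crd_add, crd_add, crd_smul, crd_smul,
      crd_smul, crd_smul, hzero v hv0 o (by simp [hv, e, Ne.symm hi₁, Ne.symm hi₂]), t1,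
      hnorm u huo i₁ hi₁, show u i₁ = a by simp [hu, e, hi₁]] at e1
    rw [show x i₂ = 1 by simp [hx, e, hi₂, hi₁₂.symm], hσone i₂ hi₂, ← hcd, crd_add, crd_add,
      crd_smul, crd_smul, crd_smul, crd_smul,
      hzero v hv0 o (by simp [hv, e, Ne.symm hi₁, Ne.symm hi₂]),
      hzero u (ho0 u huo) i₂ (by simp [hu, e, hi₂, hi₁₂.symm]), t2] at e2
    have hne : c * crd (g u) o ≠ 0 := by
      intro h
      have := hden x hxo
      rw [← hcd, crd_add, crd_smul, crd_smul,
        hzero v hv0 o (by simp [hv, e, Ne.symm hi₁, Ne.symm hi₂]), h] at this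
      simp at this
    refine mul_left_cancel₀ hne ?_
    simp only [← hs, mul_zero, add_zero, zero_add, mul_one] at e1 e2 ⊢
    linear_combination -e1 + s b * e2
  have hmul : ∀ a b, s (a * b) = s a * s b := by
    intro a b
    by_cases ha : a = 0
    · rw [ha, zero_mul, hs, hσzero i₁ hi₁, zero_mul]
    set x := e o + (a * b) • e i₁ + a • e i₂ with hx
    set v := b • e i₁ + e i₂ with hv
    have hxo : x o = 1 := by simp [hx, e, Ne.symm hi₁, Ne.symm hi₂]
    have hv0 : v ≠ 0 := fun h => by
      simpa [hv, e, hi₁₂.symm] using congrFun h i₂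
    obtain ⟨c, d, hcd⟩ := hg.line (e o) v x (he o) hv0 (ho0 x hxo)
      ⟨1, a, by simp only [hx, hv]; module⟩
    obtain ⟨t, t1, t2⟩ := hz i₁ hi₁ i₂ hi₂ hi₁₂ b 1 v
      (by simp [hv, e, Ne.symm hi₁, Ne.symm hi₂]) (by simp [hv, e, hi₁₂])
      (by simp [hv, e, hi₁₂.symm]) hv0
    rw [hσone i₂ hi₂, mul_one] at t2
    have e1 := hnorm x hxo i₁ hi₁
    have e2 := hnorm x hxo i₂ hi₂
    have hvo := hzero v hv0 o (by simp [hv, e, Ne.symm hi₁, Ne.symm hi₂])
    rw [show x i₁ = a * b by simp [hx, e, hi₁, hi₁₂], ← hcd, crd_add, crd_add, crd_smul, crd_smul,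
      crd_smul, crd_smul, hvo, t1, hge o i₁, if_neg (Ne.symm hi₁), hge o o, if_pos rfl,
      if_pos rfl] at e1
    rw [show x i₂ = a by simp [hx, e, hi₂, hi₁₂.symm], hsi i₂ hi₂, ← hcd, crd_add, crd_add,
      crd_smul, crd_smul, crd_smul, crd_smul, hvo, t2, hge o i₂, if_neg (Ne.symm hi₂), hge o o,
      if_pos rfl, if_pos rfl] at e2
    have hne : c ≠ 0 := by
      intro h
      have := hden x hxo
      rw [← hcd, crd_add, crd_smul, crd_smul, hvo, h] at this
      simp at this
    refine mul_left_cancel₀ hne ?_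
    simp only [← hs, mul_zero, add_zero, zero_add, mul_one] at e1 e2 ⊢
    linear_combination -e1 + s b * e2
  have hs1 : s 1 = 1 := hσone i₁ hi₁
  have hs0 : s 0 = 0 := hσzero i₁ hi₁
  let sh : F →+* F :=
    { toFun := s, map_one' := hs1, map_mul' := hmul, map_zero' := hs0, map_add' := hadd }
  have hsurj : Function.Surjective sh := by
    intro c
    by_cases hc : c = 0
    · exact ⟨0, by rw [hc, map_zero]⟩
    obtain ⟨x, hx0, d, hd, hdx⟩ := hg.surj (w o + c • w i₁) (fun h => by
      have := congrArg (fun y => crd y o) h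
      simp [crd_add, crd_smul, crd_w, hi₁] at this
      simp [crd] at this)
    have hco : crd (g x) o = d := by simp [hdx, crd_add, crd_smul, crd_w, hi₁]
    have hxo : x o ≠ 0 := fun h => hd (by rw [← hco, hzero x hx0 o h])
    refine ⟨(x o)⁻¹ * x i₁, ?_⟩
    set x' := (x o)⁻¹ • x with hx'
    have hx'o : x' o = 1 := by simp [hx', inv_mul_cancel₀ hxo]
    obtain ⟨p, p', hp⟩ := hg.line x x x' hx0 hx0 (ho0 x' hx'o) ⟨(x o)⁻¹, 0, by simp [hx']⟩
    have h := hnorm x' hx'o i₁ hi₁
    have hne := hden x' hx'o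
    rw [← hp, hdx] at h hne
    simp only [crd_add, crd_smul, crd_w, if_pos trivial, if_neg hi₁, if_neg (Ne.symm hi₁), mul_zero, mul_one,
      add_zero, zero_add] at h hne
    show s ((x o)⁻¹ * x i₁) = c
    rw [show x' i₁ = (x o)⁻¹ * x i₁ from rfl, ← hs] at h
    refine mul_left_cancel₀ (show p * d + p' * d ≠ 0 from fun h0 => hne (by linear_combination h0)) ?_
    linear_combination -h
  let σ : F ≃+* F := RingEquiv.ofBijective sh ⟨sh.injective, hsurj⟩
  let G : Matrix ι ι F := Matrix.of fun a i => w i a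
  have hG : IsUnit G := by
    rw [← Matrix.linearIndependent_cols_iff_isUnit]
    exact hw
  refine ⟨σ, hG.unit, fun v hv => ?_⟩
  have hGv : (G *ᵥ fun i => σ (v i)) = ∑ i, σ (v i) • w i := by
    funext a
    simp [G, Matrix.mulVec, dotProduct, Finset.sum_apply, mul_comm]
  have hcG : ∀ j, crd (G *ᵥ fun i => σ (v i)) j = σ (v j) := by
    intro j
    rw [hGv]
    simp only [crd, map_sum, map_smul, Finset.sum_apply, Pi.smul_apply, smul_eq_mul]
    simp only [show ∀ i, B.equivFun (w i) j = if i = j then 1 else 0 from fun i => crd_w i j,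
      mul_ite, mul_one, mul_zero, Finset.sum_ite_eq', Finset.mem_univ, if_true]
  have hσs : ∀ a, σ a = s a := fun _ => rfl
  have main : ∃ c : F, ∀ j, crd (g v) j = c * σ (v j) := by
    by_cases hvo : v o = 0
    · refine ?_
      set x := e o + v with hx
      have hxo : x o = 1 := by simp [hx, e, hvo]
      obtain ⟨c, d, hcd⟩ := hg.line x (e o) v (ho0 x hxo) (he o) hv ⟨1, -1, by simp [hx]⟩
      refine ⟨c * crd (g x) o, fun j => ?_⟩
      by_cases hj : j = o
      · rw [hj, hzero v hv o hvo, hvo, map_zero, mul_zero]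
      · rw [← hcd, crd_add, crd_smul, crd_smul, hge o j, if_neg (Ne.symm hj), hnorm x hxo j hj,
          show x j = v j by simp [hx, e, hj], hsi j hj, hσs]
        ring
    · set x := (v o)⁻¹ • v with hx
      have hxo : x o = 1 := by simp [hx, inv_mul_cancel₀ hvo]
      obtain ⟨c, d, hcd⟩ := hg.line x x v (ho0 x hxo) (ho0 x hxo) hv
        ⟨v o, 0, by simp [hx, smul_smul, mul_inv_cancel₀ hvo]⟩
      refine ⟨(c + d) * crd (g x) o * σ (v o)⁻¹, fun j => ?_⟩
      have hj' : crd (g x) j = crd (g x) o * σ (x j) := by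
        by_cases hj : j = o
        · rw [hj, hxo, map_one, mul_one]
        · rw [hnorm x hxo j hj, hsi j hj, hσs]
      rw [← hcd, crd_add, crd_smul, crd_smul, hj', hx, Pi.smul_apply, smul_eq_mul, map_mul]
      ring
  obtain ⟨c, hc⟩ := main
  have heq : g v = c • ((hG.unit : Matrix ι ι F) *ᵥ fun i => σ (v i)) := crd_ext _ _ fun j => by
    rw [crd_smul, IsUnit.unit_spec, hcG, hc]
  exact ⟨c, fun h => hg.ne v hv (by rw [heq, h, zero_smul]), heq⟩

end Collin

end Cfsg.Agent.KnownB.Proj
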