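import Cfsg.Agent.KnownB.Proj.FTPG

/-! Collineations from polarities. -/

set_option autoImplicit false

namespace Cfsg.Agent.KnownB.Proj

variable {F : Type*} [Field F] {ι : Type*} [Fintype ι] [DecidableEq ι]

theorem mem_pair_iff_perp (B : LinearMap.BilinForm F (ι → F)) (hB : B.Nondegenerate)
    (u v x : ι → F) :
    (∃ a b : F, a • u + b • v = x) ↔
      ∀ z, B u z = 0 → B v z = 0 → B x z = 0 := by
  constructor
  · rintro ⟨a, b, rfl⟩ z h1 h2
    simp [h1, h2]
  · intro h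
    have hker : ⨅ i, LinearMap.ker ((![B u, B v] : Fin 2 → ((ι → F) →ₗ[F] F)) i) ≤
        LinearMap.ker (B x) := by
      intro z hz
      rw [Submodule.mem_iInf] at hz
      exact h z (hz 0) (hz 1)
    have hmem := mem_span_of_iInf_ker_le_ker hker
    rw [Submodule.mem_span_range_iff_exists_fun] at hmem
    obtain ⟨c, hc⟩ := hmem
    refine ⟨c 0, c 1, sub_eq_zero.mp (hB.1 _ fun z => ?_)⟩
    have h1 := LinearMap.congr_fun hc z
    simp [Fin.sum_univ_two] at h1
    simp [h1]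

/-- A map of points compatible with a polarity is a collineation. -/
theorem collin_of_perp (B : LinearMap.BilinForm F (ι → F)) (hB : B.Nondegenerate)
    (g : (ι → F) → (ι → F)) (hne : ∀ v, v ≠ 0 → g v ≠ 0)
    (hperp : ∀ u z, u ≠ 0 → z ≠ 0 → (B u z = 0 ↔ B (g u) (g z) = 0))
    (hsurj : ∀ y, y ≠ 0 → ∃ x, x ≠ 0 ∧ ∃ c : F, c ≠ 0 ∧ g x = c • y) : Collin g := by
  refine ⟨hne, fun u v x hu hv hx h => ?_, fun u v x hu hv hx h => ?_, hsurj⟩
  · rw [mem_pair_iff_perp B hB] at h ⊢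
    intro z h1 h2
    by_cases hz : z = 0
    · simp [hz]
    obtain ⟨w, hw, c, hc, e⟩ := hsurj z hz
    have key : ∀ p, p ≠ 0 → (B (g p) z = 0 ↔ B p w = 0) := fun p hp => by
      rw [hperp p w hp hw, e, map_smul, smul_eq_mul, mul_eq_zero, or_iff_right hc]
    exact (key x hx).mpr (h w ((key u hu).mp h1) ((key v hv).mp h2))
  · rw [mem_pair_iff_perp B hB] at h ⊢
    intro z h1 h2
    by_cases hz : z = 0
    · simp [hz]
    exact (hperp x z hx hz).mpr (h (g z) ((hperp u z hu hz).mp h1) ((hperp v z hv hz).mp h2))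

end Cfsg.Agent.KnownB.Proj
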